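import Cfsg.Agent.H978.NB.Char
import Cfsg.Agent.H7.NBpCount

/-!
# S5003: two rules (helper872)

* `nb_transp`: an involution `t` such that the products `t t^g` have order `< p`;
* `nb_of_sub`: a subgroup `K ≤ C(x)` without normal `p`-subgroups and of order divisible by a large power of `p`.
-/

set_option autoImplicit false

namespace Cfsg.Agent.H872.NB

open Cfsg Subgroup Cfsg.Agent.H7.NBp Cfsg.Agent.H718.NBIH Cfsg.Agent.H978.NB

variable {p : ℕ} [hp : Fact p.Prime]

/-- **A class of involutions such that the products of two members have order `< p`.** -/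
theorem nb_transp {G : Type*} [Group G] [Finite G] {t : G} {m : ℕ} (ht : orderOf t = 2) (hp2 : p ≠ 2)
    (h : ∀ g : G, orderOf (t * (g * t * g⁻¹)) ≤ m) (hm : m < p) : NB p G := by
  have ht2 : t * t = 1 := by rw [← pow_two, ← ht, pow_orderOf_eq_one]
  refine NB.of_unique (K := conjugatesOf t) (g := t) ?_ ?_ mem_conjugatesOf_self ?_
  · intro g k hk
    exact (hk : IsConj t k).trans (isConj_iff.2 ⟨g, rfl⟩)
  · rintro ⟨j, hj⟩
    have h1 := orderOf_dvd_of_pow_eq_one hj
    rw [ht] at h1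
    exact hp2 ((Nat.prime_dvd_prime_iff_eq Nat.prime_two hp.out).1 (Nat.prime_two.dvd_of_dvd_pow h1)).symm
  · intro k hk j hj
    obtain ⟨g, rfl⟩ := isConj_iff.1 (hk : IsConj t k)
    have hk2 : (g * t * g⁻¹)⁻¹ = g * t * g⁻¹ := by
      rw [inv_eq_iff_mul_eq_one]
      calc g * t * g⁻¹ * (g * t * g⁻¹) = g * (t * t) * g⁻¹ := by group
        _ = 1 := by rw [ht2, mul_one, mul_inv_cancel]
    rw [hk2] at hj
    have h1 := h g
    obtain ⟨i, -, hi⟩ := (Nat.dvd_prime_pow hp.out).1 (orderOf_dvd_of_pow_eq_one hj)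
    have h2 : i = 0 := by
      by_contra h0
      have h3 : p ≤ p ^ i := Nat.le_self_pow h0 p
      rw [hi] at h1
      omega
    rw [h2, pow_zero, orderOf_eq_one_iff, mul_eq_one_iff_eq_inv, hk2] at hi
    exact hi.symm

/-- **A subgroup `K` of `C(x)`** without nontrivial normal `p`-subgroups, of order divisible by `p ^ c`, where
`p ^ (c + d + 1)` does not divide `|S|`, and containing an element of prime order `r ≠ p`, where `r` does not divide
`p ^ j - 1` for `1 ≤ j < d`. -/
theorem nb_of_sub {S : Type*} [Group S] [Finite S] [IsSimpleGroup S] (hna : ¬ IsMulCommutative S)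
    (ih : IH p (Nat.card S)) {x z : S} {K : Subgroup S} (hx : ∃ k : ℕ, x ^ p ^ k = 1) (hx1 : x ≠ 1)
    (hK : K ≤ centralizer ({x} : Set S)) (hKn : ∀ N : Subgroup K, N.Normal → IsPGroup p N → N = ⊥) {r c d : ℕ}
    (hr : r.Prime) (hrp : r ≠ p) (hz : orderOf z = r) (hzK : z ∈ K) (hc : p ^ c ∣ Nat.card K)
    (hd : ¬ p ^ (c + d + 1) ∣ Nat.card S) (hj : ∀ j, 1 ≤ j → j < d → ¬ r ∣ p ^ j - 1) : NB p S := by
  by_contra hnb
  obtain ⟨P, hP⟩ := exists_loc hna ih hnb hx hx1
  have hzx : z * x = x * z := mem_centralizer_singleton_iff.1 (hK hzK)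
  obtain ⟨m, j, h1, h2, h3, -, h4⟩ := hP.step hx1 hr hrp hz hzx
  have hnorm : ∀ k ∈ K, ∀ y ∈ P, k * y * k⁻¹ ∈ P := fun k hk y hy =>
    hP.norm k (mem_centralizer_singleton_iff.1 (hK hk)) y hy
  have hKN : K ≤ normalizer (P : Set S) := fun k hk => mem_normalizer_fintype (hnorm k hk)
  -- `K ∩ P = 1`
  have h5 : P.subgroupOf K = ⊥ := by
    refine hKn _ ⟨fun n hn g => ?_⟩ ?_
    · rw [mem_subgroupOf] at hn ⊢
      exact hnorm g g.2 _ hn
    · exact hP.pg.comap_subtype
  have h6 : P ⊓ K = ⊥ := by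
    rwa [subgroupOf_eq_bot, disjoint_iff] at h5
  -- `|K| |P|` divides `|S|`
  have h7 : Nat.card K * Nat.card P ∣ Nat.card S := by
    have h8 : Nat.card ↥(K ⊔ P : Subgroup S) = Nat.card K * Nat.card P := by
      have h9 : P.relIndex K = Nat.card K := by
        rw [← inf_relIndex_right, h6, relIndex_bot_left]
      have h10 : P.relIndex (K ⊔ P) = P.relIndex K := by
        have hHN : K ⊔ P ≤ normalizer (P : Set S) := sup_le hKN le_normalizer
        have hn : (P.subgroupOf (K ⊔ P)).Normal := normal_subgroupOf_of_le_normalizer hHN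
        have e1 : K.subgroupOf (K ⊔ P) ⊔ P.subgroupOf (K ⊔ P) = ⊤ := by
          rw [← subgroupOf_sup le_sup_left le_sup_right, subgroupOf_self]
        have e2 := relIndex_sup_right (K.subgroupOf (K ⊔ P)) (P.subgroupOf (K ⊔ P))
        rw [e1, relIndex_top_right, relIndex_subgroupOf le_sup_left] at e2
        exact e2
      have h11 := card_mul_index (P.subgroupOf (K ⊔ P))
      rw [Nat.card_congr (subgroupOfEquivOfLe (le_sup_right : P ≤ K ⊔ P)).toEquiv] at h11
      rw [← h11, ← h9, ← h10, mul_comm]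
      rfl
    rw [← h8]
    exact card_subgroup_dvd_card _
  have h8 : p ^ (c + (m + j)) ∣ Nat.card S := by
    rw [pow_add, ← h3]
    exact (mul_dvd_mul_right hc _).trans h7
  have h9 : m + j < d + 1 := by
    by_contra h10
    exact hd ((pow_dvd_pow p (by omega)).trans h8)
  exact hj j h2 (by omega) h4

end Cfsg.Agent.H872.NB
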